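import Groth.Prelude.Def_CurvBase
import Groth.Agent.Dual.H329.GorBase
import Groth.Agent.Flat2D.EssRes
import Mathlib.AlgebraicGeometry.Noetherian

/-!
# Gorenstein stalks and extension of the base field

For `X` locally of finite type over a field `k` and any field extension `K` of `k`, the local rings of
`X_K` are Gorenstein exactly when the local rings of `X` at the image points are.
-/

set_option autoImplicit false

universe u

open CategoryTheory Limits AlgebraicGeometry

namespace Groth.Agent.Models.H242.GorBc

open Groth.Agent.Flat2D.CMBase Groth.Agent.Dual.H329.GorBase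

/-- Gorensteinness of stalks is invariant under extension of the base field, for schemes locally of
finite type over a field (no hypothesis on the field extension). -/
theorem gor_stalk_iff_of_isPullback {κ κ' : CommRingCat.{u}} {F F' : Scheme.{u}} {φ : κ ⟶ κ'}
    {p : F ⟶ Spec κ} {p' : F' ⟶ Spec κ'} {q : F' ⟶ F} (hκ : IsField κ) (hκ' : IsField κ')
    (H : IsPullback q p' p (Spec.map φ)) [LocallyOfFiniteType p] (z' : F') :
    LocCoh.IsGorensteinLocalRing (F'.presheaf.stalk z') ↔
      LocCoh.IsGorensteinLocalRing (F.presheaf.stalk (q z')) := by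
  let _ : Field κ := hκ.toField
  let _ : Field κ' := hκ'.toField
  have h1 : IsLocallyNoetherian (Spec κ) := inferInstance
  have h2 : IsLocallyNoetherian (Spec κ') := inferInstance
  have h3 : IsLocallyNoetherian F := LocallyOfFiniteType.isLocallyNoetherian p
  have h4 : LocallyOfFiniteType p' := MorphismProperty.of_isPullback H inferInstance
  have h5 : IsLocallyNoetherian F' := LocallyOfFiniteType.isLocallyNoetherian p'
  exact gor_stalk_iff_of_field hκ hκ' H z'
    (Or.inr (Groth.Agent.Flat2D.EssRes.essFiniteType_of_SpecMap_eq p (q z') _ (SpecMap_resMap p _)))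

theorem isGorenstein_stalk_bc_iff (k : Type u) [Field k] (K : Type u) [Field K] [Algebra k K]
    (X : Scheme.{u}) [X.Over (Spec (CommRingCat.of k))]
    [LocallyOfFiniteType (X ↘ Spec (CommRingCat.of k))] (y : Curv2.bc k X K) :
    LocCoh.IsGorensteinLocalRing ((Curv2.bc k X K).presheaf.stalk y) ↔
      LocCoh.IsGorensteinLocalRing (X.presheaf.stalk (Curv2.bcFst k X K y)) :=
  gor_stalk_iff_of_isPullback (Field.toIsField k) (Field.toIsField K)
    (IsPullback.of_hasPullback _ _) y

/-- Gorenstein stalks are stable under extension of the base field. -/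
theorem isGorenstein_stalk_bc (k : Type u) [Field k] (K : Type u) [Field K] [Algebra k K]
    (X : Scheme.{u}) [X.Over (Spec (CommRingCat.of k))]
    [LocallyOfFiniteType (X ↘ Spec (CommRingCat.of k))]
    (h : ∀ x : X, LocCoh.IsGorensteinLocalRing (X.presheaf.stalk x)) (y : Curv2.bc k X K) :
    LocCoh.IsGorensteinLocalRing ((Curv2.bc k X K).presheaf.stalk y) :=
  (isGorenstein_stalk_bc_iff k K X y).2 (h _)

end Groth.Agent.Models.H242.GorBc
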